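import Cfsg.Agent.H566.RC.Kill4
import Cfsg.Agent.H236.RC.Ident

/-!
# S3510, triality: the induction hypothesis for the complement of a composition plane (helper566)

`rc_W` : `IH` implies `RC (P (Q|W))`, `W = ⟨a, b⟩^⊥` (for `q = 2` the plane is anisotropic, so `W` is of minus type).
-/

set_option autoImplicit false
set_option linter.unusedSectionVars false

namespace Cfsg.Agent.H566.RC

open Module QuadraticMap Cfsg.Agent.LieClassical.OrthCore Cfsg.Agent.LieClassical.OrthTrans
  Cfsg.Agent.LieClassical.OrthSimple Cfsg.Agent.ClassicalGeometry.OrthAut1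
  Cfsg.Agent.ClassicalGeometry.OrthSemi Cfsg.Agent.H198.Classes
  Cfsg.Agent.LieClassical.QuadForms Cfsg.Agent.H198.ClassesPlus
  Cfsg.Agent.ClassicalGeometry.TrialityOct Cfsg.Agent.ClassicalGeometry.Triality
  Cfsg.Agent.ClassicalGeometry.TrialitySpaces Cfsg.Agent.H198.TriBase Cfsg.Agent.H198.TriAut
  Cfsg.Agent.H198.TriDia Cfsg.Agent.H198.TriTC Cfsg.Agent.H106.RC Cfsg.Agent.H93.RC

variable {F : Type} [Field F] [Finite F]

theorem eq_one_of_card (h2 : Nat.card F = 2) {x : F} (hx : x ≠ 0) : x = 1 := by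
  have := Fintype.ofFinite F
  rw [Nat.card_eq_fintype_card] at h2
  have h1 := FiniteField.pow_card_sub_one_eq_one x hx
  rwa [h2, pow_one] at h1

/-- for `q = 2` the plane is anisotropic -/
theorem aniso_two (h2 : Nat.card F = 2) {τ : G8 F} {a b : V8 F} (k : Kp τ a b) {α β : F}
    (h0 : plusForm 4 F (α • a + β • b) = 0) : α = 0 ∧ β = 0 := by
  have hch : (2 : F) = 0 := by
    have := Fintype.ofFinite F
    have h3 : (Fintype.card F : F) = 0 := FiniteField.cast_card_eq_zero F
    rw [← Nat.card_eq_fintype_card, h2] at h3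
    exact_mod_cast h3
  have ha : plusForm 4 F a = 1 := eq_one_of_card h2 k.ne
  have hb : plusForm 4 F b = 1 := by rw [k.norm, ha]
  have hc : polar (plusForm 4 F) a b = 1 := by
    apply eq_one_of_card h2
    intro h3
    apply k.disc
    have h4 : (4 : F) = 0 := by linear_combination (2 : F) * hch
    rw [h3, h4]
    ring
  rw [Q_add, QuadraticMap.map_smul, QuadraticMap.map_smul, polar_smul_left, polar_smul_right, ha, hb, hc] at h0
  simp only [smul_eq_mul, mul_one] at h0
  by_cases hα : α = 0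
  · rw [hα] at h0
    refine ⟨hα, ?_⟩
    have : β * β = 0 := by linear_combination h0
    exact mul_self_eq_zero.1 this
  · by_cases hβ : β = 0
    · rw [hβ] at h0
      refine ⟨?_, hβ⟩
      have : α * α = 0 := by linear_combination h0
      exact mul_self_eq_zero.1 this
    · exfalso
      rw [eq_one_of_card h2 hα, eq_one_of_card h2 hβ] at h0
      have : (1 : F) = 0 := by linear_combination h0 - hch
      exact one_ne_zero this

/-- **RC for the complement** -/
theorem rc_W (hG : Good (plusForm 4 F)) {τ : G8 F} (h : Au τ) {a b : V8 F} (k : Kp τ a b)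
    (hIH : IH (Nat.card (P (plusForm 4 F)))) : RC (P ((plusForm 4 F).comp (Wp a b).subtype)) := by
  obtain ⟨hWG, hWd, hWt⟩ := Wp_facts k hG
  have hfin : Finite (P ((plusForm 4 F).comp (Wp a b).subtype)) := Cfsg.Agent.H236.RC.finite_P
  obtain ⟨h1, h2, h3, h4⟩ := Cfsg.Agent.H236.RC.box_id hWG
  refine hIH _ h1 h2 h3 ?_ (Cfsg.Agent.H236.RC.box_card hG _ hWG hWt)
  refine h4.resolve_left ?_
  rintro ⟨hc2, hd6, U, hU, hU3⟩
  have hn : Neutral ((plusForm 4 F).comp (Wp a b).subtype) 3 := ⟨hWG.nondeg, inferInstance, hd6, U, hU3, hU⟩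
  have hUl : Lag ((plusForm 4 F).comp (Wp a b).subtype) 3 U := ⟨hU3, hU⟩
  -- the image in `V`
  have hdim : finrank F (U.map (Wp a b).subtype) = 3 := by
    rw [← hU3]
    exact (Submodule.equivMapOfInjective _ (Submodule.injective_subtype _) U).finrank_eq.symm
  have hts : ∀ w ∈ U.map (Wp a b).subtype, plusForm 4 F w = 0 := by
    rintro _ ⟨u, hu, rfl⟩
    exact hU u hu
  have hnm : ¬ ∀ W' : Submodule F (V8 F), (∀ w ∈ W', plusForm 4 F w = 0) → U.map (Wp a b).subtype ≤ W' →
      W' = U.map (Wp a b).subtype := by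
    intro hmax
    have h5 := lag_of_max (neutral_plus 4 F) hts hmax
    exact absurd (hdim.symm.trans h5.1) (by norm_num)
  push Not at hnm
  obtain ⟨W', hW', hle, hne⟩ := hnm
  apply hne
  refine le_antisymm (fun v hv => ?_) hle
  obtain ⟨α, β, w, rfl, hwa, hwb⟩ := exists_dec h k v
  have hort : ∀ u ∈ U, polar (plusForm 4 F) (u : V8 F) w = 0 := by
    intro u hu
    have e1 : polar (plusForm 4 F) (u : V8 F) (α • a + β • b + w) = 0 := by
      have hu' : (u : V8 F) ∈ W' := hle ⟨u, hu, rfl⟩
      rw [QuadraticMap.polar, hW' _ (W'.add_mem hu' hv), hW' _ hu', hW' _ hv]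
      ring
    have e2 := u.2.1
    have e3 := u.2.2
    rw [polar_add_right, polar_add_right, polar_smul_right, polar_smul_right, e2, e3, smul_zero, smul_zero, zero_add,
      zero_add] at e1
    exact e1
  have hwU : (⟨w, hwa, hwb⟩ : Wp a b) ∈ U := mem_of_orth hn hUl fun u hu => hort u hu
  have hwW : w ∈ U.map (Wp a b).subtype := ⟨_, hwU, rfl⟩
  have hK : α • a + β • b ∈ W' := by
    have := W'.sub_mem hv (hle hwW)
    rwa [add_sub_cancel_right] at this
  obtain ⟨rfl, rfl⟩ := aniso_two hc2 k (hW' _ hK)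
  rw [zero_smul, zero_smul, add_zero, zero_add]
  exact hwW

end Cfsg.Agent.H566.RC
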