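import Cfsg.Agent.H566.RC.Rot
import Cfsg.Agent.H566.RC.TriFrame

/-!
# S3510, triality: the rotation `r_a r_b` and its images under the triality automorphism (helper566)
-/

set_option autoImplicit false
set_option linter.unusedSectionVars false

namespace Cfsg.Agent.H566.RC

open Module QuadraticMap Cfsg.Agent.LieClassical.OrthCore Cfsg.Agent.LieClassical.OrthTrans
  Cfsg.Agent.LieClassical.OrthSimple Cfsg.Agent.ClassicalGeometry.OrthAut1
  Cfsg.Agent.ClassicalGeometry.OrthSemi Cfsg.Agent.H198.Classes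
  Cfsg.Agent.LieClassical.QuadForms Cfsg.Agent.H198.ClassesPlus
  Cfsg.Agent.ClassicalGeometry.TrialityOct Cfsg.Agent.ClassicalGeometry.Triality
  Cfsg.Agent.ClassicalGeometry.TrialitySpaces Cfsg.Agent.H198.TriBase Cfsg.Agent.H198.TriAut
  Cfsg.Agent.H198.TriDia Cfsg.Agent.H198.TriTC Cfsg.Agent.H106.RC Cfsg.Agent.H93.RC

universe u

variable {F : Type u} [Field F]

section

variable {τ : G8 F} (h : Au τ) {a b : V8 F} (k : Kp τ a b)

theorem refl_refl_gm (ha : plusForm 4 F a ≠ 0) (hb : plusForm 4 F b ≠ 0) (v : V8 F) :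
    refl (plusForm 4 F) a ha (refl (plusForm 4 F) b hb v) = gm a b v := by
  unfold gm
  rw [refl_apply, refl_apply, polar_comm _ b v, polar_comm _ a, div_eq_inv_mul, div_eq_inv_mul]

/-- the rotation as an element of `E Q` -/
theorem exists_rot (hG : Good (plusForm 4 F)) (k : Kp τ a b) :
    ∃ β : ↥(E (plusForm 4 F)), ∀ v, (β : V8 F ≃ₗ[F] V8 F) v = gm a b v := by
  have hb : plusForm 4 F b ≠ 0 := by rw [k.norm]; exact k.ne
  refine ⟨⟨_, hG.refl_mul_refl_mem hb k.ne k.norm⟩, fun v => ?_⟩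
  change refl (plusForm 4 F) a k.ne (refl (plusForm 4 F) b hb v) = gm a b v
  exact refl_refl_gm k.ne hb v

theorem inv_app (M : G8 F) (x : V8 F) : M⁻¹.1 (M.1 x) = x := M.1.symm_apply_apply x

theorem app_inv (M : G8 F) (x : V8 F) : M.1 (M⁻¹.1 x) = x := M.1.apply_symm_apply x

theorem mulG (M N : G8 F) (v : V8 F) : (M * N).1 v = M.1 (N.1 v) := rfl

theorem scalG (c : Fˣ) (v : V8 F) : (scal (plusForm 4 F) c).1 v = (c : F) • v := rfl

theorem tg_coe (β : ↥(E (plusForm 4 F))) (v : V8 F) : (tg (plusForm 4 F) β).1 v = (β : V8 F ≃ₗ[F] V8 F) v := rfl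

theorem Psi_mi (M X : G8 F) : Psi (plusForm 4 F) (M * X * M⁻¹) =
    Psi (plusForm 4 F) M * Psi (plusForm 4 F) X * (Psi (plusForm 4 F) M)⁻¹ := by
  rw [map_mul (Psi (plusForm 4 F)) (M * X) M⁻¹, map_mul (Psi (plusForm 4 F)) M X, map_inv (Psi (plusForm 4 F)) M]

theorem Psi_im (M X : G8 F) : Psi (plusForm 4 F) (M⁻¹ * X * M) =
    (Psi (plusForm 4 F) M)⁻¹ * Psi (plusForm 4 F) X * Psi (plusForm 4 F) M := by
  rw [map_mul (Psi (plusForm 4 F)) (M⁻¹ * X) M, map_mul (Psi (plusForm 4 F)) M⁻¹ X, map_inv (Psi (plusForm 4 F)) M]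

theorem gen_1 {G : Type*} [Group G] {t m r : G} : t * r * m * (t * r)⁻¹ = t * (r * m * r⁻¹) * t⁻¹ := by group

theorem gen_2 {G : Type*} [Group G] {t m r : G} : (t * r)⁻¹ * m * (t * r) = r⁻¹ * (t⁻¹ * m * t) * r := by group

include h k in
/-- the images of the rotation under the triality automorphism -/
theorem exists_H (hG : Good (plusForm 4 F)) (β : ↥(E (plusForm 4 F)))
    (hβ : ∀ v, (β : V8 F ≃ₗ[F] V8 F) v = gm a b v) :
    ∃ H1 H2 : G8 F, (∀ v, H1.1 v = ((plusForm 4 F a)⁻¹ ^ 2) • Sm τ a b v) ∧ (∀ v, H2.1 v = Rm τ a b v) ∧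
      xt hG τ * Psi _ (tg _ β) * (xt hG τ)⁻¹ = Psi _ H1 ∧ (xt hG τ)⁻¹ * Psi _ (tg _ β) * xt hG τ = Psi _ H2 := by
  have ha := k.ne
  have hb : plusForm 4 F b ≠ 0 := by rw [k.norm]; exact k.ne
  set c := scal (plusForm 4 F) (Units.mk0 (-(plusForm 4 F a)⁻¹) (neg_ne_zero.2 (inv_ne_zero ha))) with hc
  set d := scal (plusForm 4 F) (Units.mk0 (-(plusForm 4 F b)⁻¹) (neg_ne_zero.2 (inv_ne_zero hb))) with hd
  have hc' : ∀ v, c.1 v = (-(plusForm 4 F a)⁻¹ : F) • v := fun v => rfl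
  have hd' : ∀ v, d.1 v = (-(plusForm 4 F b)⁻¹ : F) • v := fun v => rfl
  clear_value c d
  have eg : tg _ β = gamO _ ⟨refl (plusForm 4 F) a ha, refl_mem_O ha⟩ *
        gamO _ ⟨refl (plusForm 4 F) b hb, refl_mem_O hb⟩ := by
      apply Subtype.ext
      ext1 v
      change (β : V8 F ≃ₗ[F] V8 F) v = refl (plusForm 4 F) a ha (refl (plusForm 4 F) b hb v)
      rw [refl_refl_gm, hβ]
  rw [gamO_refl, gamO_refl, ← hc, ← hd] at eg
  have eg' : tg _ β = c * bG a ha * (d * (kapG F * bG b hb * kapG F)) := by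
    rw [eg]
    apply Subtype.ext
    ext1 v
    simp only [mulG, hc', hd', bG_apply, kapG_apply, oconj_smul]
  clear eg
  have ht : TriS (tg _ β) (c * lG a ha * (d * (kapG F * rG b hb * kapG F)))
      (1 * rG a ha * (1 * (kapG F * lG b hb * kapG F))) := by
    rw [eg', hc, hd]
    exact ((tri_scal _).mul (tri_bG a ha)).mul ((tri_scal _).mul (tri_bG b hb).kap)
  have ht' : TriS (τ⁻¹ * tg _ β * τ) (τ⁻¹ * (c * lG a ha * (d * (kapG F * rG b hb * kapG F))) * τ)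
      (τ⁻¹ * (1 * rG a ha * (1 * (kapG F * lG b hb * kapG F))) * τ) := (h.tri.inv.mul ht).mul h.tri
  have hi : ∀ x, τ⁻¹.1 x = τ.1 (τ.1 x) := h.inv_eq
  refine ⟨τ * (kapG F * (c * lG a ha * (d * (kapG F * rG b hb * kapG F))) * kapG F) * τ⁻¹,
    kapG F * (τ⁻¹ * (1 * rG a ha * (1 * (kapG F * lG b hb * kapG F))) * τ) * kapG F, ?_, ?_, ?_, ?_⟩
  · intro v
    simp only [mulG, hc', hd', lG_apply, rG_apply, kapG_apply]
    unfold Sm
    rw [h.dia_eq (dia τ b v) a, h.dia_eq b v]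
    simp only [hi, oconj_oconj, omul_smul, smul_smul, oconj_smul, h.smul, oconj_omul, h.mul, h.conj, h.t3, k.norm]
    congr 1
    ring
  · intro v
    simp only [mulG, one_mul, lG_apply, rG_apply, kapG_apply]
    unfold Rm
    rw [h.dia_eq a, h.dia_eq v b]
    simp only [hi, oconj_oconj, oconj_omul, h.mul, h.conj, h.t3]
  · rw [xt, gen_1, rho_conj hG ht]
    exact (Psi_mi τ _).symm
  · rw [xt, gen_2]
    have e1 := rho_inv_conj hG ht'
    rw [Psi_im τ (tg _ β)] at e1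
    exact e1

end

end Cfsg.Agent.H566.RC
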