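import Mathlib.Algebra.QuadraticAlgebra.Defs
import Cfsg.Agent.H566.RC.Kill1
import Cfsg.Agent.H236.RC.FA3

/-!
# S3510, triality: linear algebra of the rotation of a composition plane (helper566)
-/

set_option autoImplicit false
set_option linter.unusedSectionVars false

namespace Cfsg.Agent.H566.RC

open Module QuadraticMap Cfsg.Agent.LieClassical.OrthCore Cfsg.Agent.LieClassical.OrthTrans
  Cfsg.Agent.LieClassical.OrthSimple Cfsg.Agent.ClassicalGeometry.OrthAut1
  Cfsg.Agent.ClassicalGeometry.OrthSemi Cfsg.Agent.H198.Classes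
  Cfsg.Agent.LieClassical.QuadForms Cfsg.Agent.H198.ClassesPlus
  Cfsg.Agent.ClassicalGeometry.TrialityOct Cfsg.Agent.ClassicalGeometry.Triality
  Cfsg.Agent.ClassicalGeometry.TrialitySpaces Cfsg.Agent.H198.TriBase Cfsg.Agent.H198.TriAut
  Cfsg.Agent.H198.TriDia Cfsg.Agent.H198.TriTC Cfsg.Agent.H106.RC Cfsg.Agent.H93.RC

universe u

variable {F : Type u} [Field F]

/-- the plane -/
def InK (a b v : V8 F) : Prop := ∃ α β : F, v = α • a + β • b

/-- the quadratic algebra generated by `S` -/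
abbrev QA (a b : V8 F) := QuadraticAlgebra F (-(plusForm 4 F a) ^ 2) (polar (plusForm 4 F) a b)

theorem qa_reduced {a b : V8 F} (hd : polar (plusForm 4 F) a b ^ 2 ≠ 4 * plusForm 4 F a ^ 2)
    (z : QA a b) (hz : z * z = 0) : z = 0 := by
  have h1 := congrArg QuadraticAlgebra.re hz
  have h2 := congrArg QuadraticAlgebra.im hz
  rw [QuadraticAlgebra.re_mul, QuadraticAlgebra.re_zero] at h1
  rw [QuadraticAlgebra.im_mul, QuadraticAlgebra.im_zero] at h2
  have h3 : z.im = 0 := by
    by_contra h0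
    apply hd
    have h4 : 2 * z.re + polar (plusForm 4 F) a b * z.im = 0 := by
      have : z.im * (2 * z.re + polar (plusForm 4 F) a b * z.im) = 0 := by linear_combination h2
      exact (mul_eq_zero.1 this).resolve_left h0
    have h5 : z.im ^ 2 * (polar (plusForm 4 F) a b ^ 2 - 4 * plusForm 4 F a ^ 2) = 0 := by
      linear_combination (polar (plusForm 4 F) a b * z.im - 2 * z.re) * h4 + 4 * h1
    exact sub_eq_zero.1 ((mul_eq_zero.1 h5).resolve_left (pow_ne_zero 2 h0))
  have h6 : z.re = 0 := by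
    rw [h3] at h1
    have : z.re * z.re = 0 := by linear_combination h1
    exact mul_self_eq_zero.1 this
  exact QuadraticAlgebra.ext h6 h3

theorem qa_pow {a b : V8 F} (hd : polar (plusForm 4 F) a b ^ 2 ≠ 4 * plusForm 4 F a ^ 2) {p : ℕ} [hp : Fact p.Prime]
    [CharP F p] (z : QA a b) (hz : z ^ p = 1) : z = 1 := by
  have hred : IsReduced (QA a b) := (isReduced_iff_pow_one_lt 2 one_lt_two).2 fun x hx =>
    qa_reduced hd x (by rw [← pow_two]; exact hx)
  have hch : CharP (QA a b) p := charP_of_injective_algebraMap (R := F) QuadraticAlgebra.algebraMap_injective p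
  have h1 : (z - 1) ^ p = 0 := by rw [sub_pow_char, hz, one_pow, sub_self]
  exact sub_eq_zero.1 (pow_eq_zero_iff hp.out.ne_zero |>.1 h1)

/-- the action of the quadratic algebra on the plane -/
def ac (τ : G8 F) (a b : V8 F) (z : QA a b) (v : V8 F) : V8 F := z.re • v + z.im • Sm τ a b v

section

variable {τ : G8 F} (h : Au τ) {a b : V8 F} (k : Kp τ a b)

theorem InK.add {v w : V8 F} (hv : InK a b v) (hw : InK a b w) : InK a b (v + w) := by
  obtain ⟨α, β, rfl⟩ := hv
  obtain ⟨γ, δ, rfl⟩ := hw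
  exact ⟨α + γ, β + δ, by module⟩

theorem InK.smul {v : V8 F} (hv : InK a b v) (c : F) : InK a b (c • v) := by
  obtain ⟨α, β, rfl⟩ := hv
  exact ⟨c * α, c * β, by module⟩

theorem inK_a : InK a b a := ⟨1, 0, by module⟩

theorem inK_b : InK a b b := ⟨0, 1, by module⟩

include h k

theorem InK.S {v : V8 F} (hv : InK a b v) : InK a b (Sm τ a b v) := by
  obtain ⟨α, β, rfl⟩ := hv
  rw [Sm_add h, Sm_smul h, Sm_smul h, S_a h k, S_b h k]
  refine ⟨-β * plusForm 4 F a, α * plusForm 4 F a + β * polar (plusForm 4 F) a b, by module⟩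

theorem ac_mul (z w : QA a b) {v : V8 F} (hv : InK a b v) : ac τ a b (z * w) v = ac τ a b z (ac τ a b w v) := by
  unfold ac
  rw [Sm_add h, Sm_smul h, Sm_smul h, SS h k hv, QuadraticAlgebra.re_mul, QuadraticAlgebra.im_mul]
  module

omit h k in
theorem ac_one (v : V8 F) : ac τ a b 1 v = v := by
  unfold ac
  rw [QuadraticAlgebra.re_one, QuadraticAlgebra.im_one]
  module

theorem InK.ac {v : V8 F} (hv : InK a b v) (z : QA a b) : InK a b (ac τ a b z v) :=
  (hv.smul _).add ((hv.S h k).smul _)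

/-- the rotation as an element of the quadratic algebra -/
noncomputable def zg (a b : V8 F) : QA a b :=
  ⟨polar (plusForm 4 F) a b ^ 2 / plusForm 4 F a ^ 2 - 1, -(polar (plusForm 4 F) a b / plusForm 4 F a ^ 2)⟩

theorem gm_ac {v : V8 F} (hv : InK a b v) : gm a b v = ac τ a b (zg a b) v := by
  obtain ⟨α, β, rfl⟩ := hv
  have hne := k.ne
  rw [gm_add, gm_smul, gm_smul, gm_a k, gm_b k]
  unfold ac zg
  dsimp only
  rw [Sm_add h, Sm_smul h, Sm_smul h, S_a h k, S_b h k]
  generalize polar (plusForm 4 F) a b = c at *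
  generalize plusForm 4 F a = κ at *
  match_scalars <;> field_simp <;> ring

theorem gm_iter {v : V8 F} (hv : InK a b v) (n : ℕ) : (gm a b)^[n] v = ac τ a b (zg a b ^ n) v := by
  induction n with
  | zero => rw [pow_zero, ac_one]; rfl
  | succ n ih => rw [Function.iterate_succ_apply', ih, gm_ac h k (hv.ac h k _), ← ac_mul h k _ _ hv, ← pow_succ']

omit h in
theorem indep {α β : F} (he : α • a + β • b = 0) : α = 0 ∧ β = 0 := by
  have h1 := congrArg (fun v => polar (plusForm 4 F) v a) he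
  have h2 := congrArg (fun v => polar (plusForm 4 F) v b) he
  simp only [polar_add_left, polar_smul_left, polar_self', k.norm, polar_comm _ b a, polar_zero_left, smul_eq_mul] at h1 h2
  have hd := sub_ne_zero.2 k.disc
  have h3 : α * (polar (plusForm 4 F) a b ^ 2 - 4 * plusForm 4 F a ^ 2) = 0 := by
    linear_combination polar (plusForm 4 F) a b * h2 - 2 * plusForm 4 F a * h1
  have h4 : β * (polar (plusForm 4 F) a b ^ 2 - 4 * plusForm 4 F a ^ 2) = 0 := by
    linear_combination polar (plusForm 4 F) a b * h1 - 2 * plusForm 4 F a * h2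
  exact ⟨(mul_eq_zero.1 h3).resolve_right hd, (mul_eq_zero.1 h4).resolve_right hd⟩

theorem ac_eq {z : QA a b} {c : F} (hz : ac τ a b z a = c • a) : z = QuadraticAlgebra.C c := by
  unfold ac at hz
  rw [S_a h k] at hz
  have h1 : (z.re - c) • a + (z.im * plusForm 4 F a) • b = 0 := by
    rw [sub_smul, mul_smul, ← hz]
    abel
  obtain ⟨h2, h3⟩ := indep k h1
  exact QuadraticAlgebra.ext (sub_eq_zero.1 h2) ((mul_eq_zero.1 h3).resolve_right k.ne)

theorem gm_b_ne : gm a b b ≠ b := by
  intro he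
  rw [gm_b k] at he
  have h1 : (polar (plusForm 4 F) a b / plusForm 4 F a) • a + (-2 : F) • b = 0 := by
    have : (polar (plusForm 4 F) a b / plusForm 4 F a) • a + (-2 : F) • b =
      ((polar (plusForm 4 F) a b / plusForm 4 F a) • a - b) - b := by module
    rw [this, he, sub_self]
  obtain ⟨h2, h3⟩ := indep k h1
  apply k.disc
  have h4 : polar (plusForm 4 F) a b = 0 := (div_eq_zero_iff.1 h2).resolve_right k.ne
  have h5 : (4 : F) = 0 := by
    have : (4 : F) = (-2) * (-2) := by norm_num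
    rw [this, h3, zero_mul]
  rw [h4, h5]
  ring

/-- an element of `p`-power order is trivial -/
theorem iter_p {p : ℕ} [Fact p.Prime] [CharP F p] {n : ℕ} (hn : ∀ v, (gm a b)^[n * p] v = v) (v : V8 F) :
    (gm a b)^[n] v = v := by
  have h1 : zg a b ^ n = 1 := by
    apply qa_pow k.disc (p := p)
    rw [← pow_mul]
    have h2 := hn a
    rw [gm_iter h k inK_a] at h2
    have h3 : ac τ a b (zg a b ^ (n * p)) a = (1 : F) • a := by rw [h2, one_smul]
    rw [ac_eq h k h3, QuadraticAlgebra.C_one]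
  obtain ⟨α, β, w, rfl, hwa, hwb⟩ := exists_dec h k v
  have hadd : ∀ (n : ℕ) (x y : V8 F), (gm a b)^[n] (x + y) = (gm a b)^[n] x + (gm a b)^[n] y := by
    intro n x y
    induction n with
    | zero => rfl
    | succ n ih => rw [Function.iterate_succ_apply', ih, gm_add, Function.iterate_succ_apply',
        Function.iterate_succ_apply']
  have hw : (gm a b)^[n] w = w := Function.iterate_fixed (gm_w hwa hwb) n
  rw [hadd, hw, gm_iter h k ⟨α, β, rfl⟩, h1, ac_one]

end

/-! ### The orthogonal complement -/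

section

variable {τ : G8 F} (h : Au τ) {a b : V8 F} (k : Kp τ a b)

/-- the orthogonal complement -/
def Wp (a b : V8 F) : Submodule F (V8 F) where
  carrier := {v | polar (plusForm 4 F) v a = 0 ∧ polar (plusForm 4 F) v b = 0}
  add_mem' := by
    rintro v w ⟨h1, h2⟩ ⟨h3, h4⟩
    exact ⟨by rw [polar_add_left, h1, h3, add_zero], by rw [polar_add_left, h2, h4, add_zero]⟩
  zero_mem' := ⟨polar_zero_left _ _, polar_zero_left _ _⟩
  smul_mem' := by
    rintro c v ⟨h1, h2⟩
    exact ⟨by rw [polar_smul_left, h1, smul_zero], by rw [polar_smul_left, h2, smul_zero]⟩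

theorem mem_Wp {v : V8 F} : v ∈ Wp a b ↔ polar (plusForm 4 F) v a = 0 ∧ polar (plusForm 4 F) v b = 0 := Iff.rfl

include k

theorem Wp_facts (hG : Good (plusForm 4 F)) [Finite F] :
    Good ((plusForm 4 F).comp (Wp a b).subtype) ∧ finrank F (Wp a b) = 6 ∧ Wp a b ≠ ⊤ := by
  have hdet : 4 * plusForm 4 F a * plusForm 4 F b - polar (plusForm 4 F) a b * polar (plusForm 4 F) a b ≠ 0 := by
    intro h0
    apply k.disc
    rw [k.norm] at h0
    linear_combination -h0
  obtain ⟨α, β, hsp, hW1, hW2⟩ := Cfsg.Agent.H236.RC.split_of_det hdet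
  have hW : Wp a b = Cfsg.Agent.GenOrth.Comp α β := by
    ext v
    rw [mem_Wp, Cfsg.Agent.GenOrth.mem_Comp, polar_comm _ v a, polar_comm _ v b]
    exact ⟨fun h => hW2 v h.1 h.2, fun h => hW1 v h.1 h.2⟩
  have hWnd : Nondeg ((plusForm 4 F).comp (Wp a b).subtype) := by
    rw [hW]
    exact Cfsg.Agent.GenOrth.nondeg_restr hG.nondeg hsp
  have hV : finrank F (V8 F) = 8 := by
    rw [Module.finrank_pi]
    rfl
  have hWd : finrank F (Wp a b) = 6 := by
    have h1 := Cfsg.Agent.GenOrth.finrank_Comp hsp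
    rw [← hW] at h1
    have h2 : finrank F (Wp a b) + 2 = 8 := h1.trans hV
    omega
  refine ⟨Cfsg.Agent.LieClassical.OrthFinite.good_of_finite hWnd (le_of_le_of_eq (by norm_num) hWd.symm), hWd, ?_⟩
  intro h0
  rw [h0, finrank_top, hV] at hWd
  omega

/-- a nonsingular vector of `W` -/
theorem exists_w (hG : Good (plusForm 4 F)) [Finite F] : ∃ w ∈ Wp a b, plusForm 4 F w ≠ 0 := by
  obtain ⟨h1, h2, h3⟩ := Wp_facts k hG
  by_contra hcon
  push Not at hcon
  obtain ⟨v, hv⟩ : ∃ v : Wp a b, v ≠ 0 := by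
    by_contra h4
    push Not at h4
    have h5 : Subsingleton (Wp a b) := ⟨fun x y => by rw [h4 x, h4 y]⟩
    rw [finrank_zero_of_subsingleton] at h2
    omega
  apply hv
  apply h1.nondeg
  intro y
  rw [QuadraticMap.polar]
  have e : ∀ z : Wp a b, (plusForm 4 F).comp (Wp a b).subtype z = 0 := fun z => hcon z z.2
  rw [e, e, e]
  ring

include h

theorem exists_not_inK (hG : Good (plusForm 4 F)) [Finite F] {w : V8 F} (hQ : plusForm 4 F w ≠ 0) :
    ∃ w' ∈ Wp a b, ¬ InK a b (dia τ w w') := by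
  obtain ⟨h1, h2, h3⟩ := Wp_facts k hG
  by_contra hcon
  push Not at hcon
  let L : V8 F →ₗ[F] V8 F :=
    { toFun := fun v => dia τ w v
      map_add' := fun x y => h.dia_add_right w x y
      map_smul' := fun c x => h.dia_smul_right c w x }
  have hinj : Function.Injective L := by
    rw [injective_iff_map_eq_zero]
    intro v hv
    have h4 := h.dia_dia w v
    have h5 : dia τ w v = 0 := hv
    have h6 : dia τ (0 : V8 F) w = 0 := by
      have := h.dia_smul_left 0 0 w
      rwa [zero_smul, zero_smul] at this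
    rw [h5, h6] at h4
    exact (smul_eq_zero.1 h4.symm).resolve_left hQ
  have h7 : (Wp a b).map L ≤ Submodule.span F {a, b} := by
    rintro _ ⟨v, hv, rfl⟩
    obtain ⟨α, β, h8⟩ := hcon v hv
    rw [Submodule.mem_span_pair]
    exact ⟨α, β, h8.symm⟩
  have h8 := Submodule.finrank_mono h7
  have h9 : finrank F ((Wp a b).map L) = finrank F (Wp a b) :=
    (Submodule.equivMapOfInjective L hinj (Wp a b)).finrank_eq.symm
  have h10 : finrank F (Submodule.span F {a, b}) ≤ 2 := by
    classical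
    refine (finrank_span_le_card ({a, b} : Set (V8 F))).trans ?_
    rw [Set.toFinset_insert, Set.toFinset_singleton]
    exact Finset.card_le_two
  rw [h9, h2] at h8
  omega

/-- an automorphism of the product which fixes `a`, `b` and is scalar on `W` is trivial -/
theorem eq_one_of_scalOn (hG : Good (plusForm 4 F)) [Finite F] {M : G8 F} (hl : Cfsg.Agent.H93.RC.IsLin M)
    (hd : ∀ u w, M.1 (dia τ u w) = dia τ (M.1 u) (M.1 w)) (ha : M.1 a = a) (hb : M.1 b = b)
    (hs : ScalOn M (Wp a b)) (v : V8 F) : M.1 v = v := by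
  obtain ⟨s, hs0, hs⟩ := hs
  obtain ⟨w, hw, hQ⟩ := exists_w k hG
  have hadd : ∀ x y : V8 F, M.1 (x + y) = M.1 x + M.1 y := add_of_mem M.2
  have e1 : s * s = 1 := by
    have h1 : dia τ w a ∈ Wp a b := perp_right h k hw.1 hw.2 (Or.inl rfl)
    have h2 := hd (dia τ w a) w
    rw [h.dia_dia, hl, ha, hs _ h1, hs _ hw, h.dia_smul_left, h.dia_smul_right, h.dia_dia, smul_smul, smul_smul] at h2
    have h3 : (plusForm 4 F w * (1 - s * s)) • a + (0 : F) • b = 0 := by
      rw [zero_smul, add_zero]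
      have : (plusForm 4 F w * (1 - s * s)) • a = plusForm 4 F w • a - (s * (s * plusForm 4 F w)) • a := by module
      rw [this, h2, sub_eq_zero]
      module
    have h4 := ((mul_eq_zero.1 (indep k h3).1).resolve_left hQ)
    exact (sub_eq_zero.1 h4).symm
  obtain ⟨w', hw', hnot⟩ := exists_not_inK h k hG hQ
  obtain ⟨α, β, u, hu, hua, hub⟩ := exists_dec h k (dia τ w w')
  have hu0 : u ≠ 0 := by
    rintro rfl
    exact hnot ⟨α, β, by rw [hu, add_zero]⟩
  have e2 : s = 1 := by
    have h2 := hd w w'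
    rw [hs _ hw, hs _ hw', h.dia_smul_left, h.dia_smul_right, smul_smul, e1, one_smul, hu, hadd, hadd, hl, hl, ha, hb,
      hs u ⟨hua, hub⟩] at h2
    have h3 : (s - 1) • u = 0 := by
      rw [sub_smul, one_smul, sub_eq_zero]
      exact add_left_cancel h2
    exact sub_eq_zero.1 ((smul_eq_zero.1 h3).resolve_right hu0)
  obtain ⟨γ, δ, x, rfl, hxa, hxb⟩ := exists_dec h k v
  rw [hadd, hadd, hl, hl, ha, hb, hs x ⟨hxa, hxb⟩, e2, one_smul]

end

end Cfsg.Agent.H566.RC
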