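import Cfsg.Agent.H566.RC.Kill2
import Cfsg.Agent.H188.RC.BoxA

/-!
# S3510, triality: the KL lemma (helper566)

`kill` : a cover consisting of a triality element `x i₁` (`xt hG τ`, `τ` linear) and commuting elements of different
prime orders whose lifts are automorphisms of `dia τ` fixing a composition plane `⟨a, b⟩` does not exist
(if `RC` holds for the orthogonal group of the complement).
-/

set_option autoImplicit false
set_option linter.unusedSectionVars false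

namespace Cfsg.Agent.H566.RC

open Module QuadraticMap Cfsg.Agent.LieClassical.OrthCore Cfsg.Agent.LieClassical.OrthTrans
  Cfsg.Agent.LieClassical.OrthSimple Cfsg.Agent.ClassicalGeometry.OrthAut1
  Cfsg.Agent.ClassicalGeometry.OrthSemi Cfsg.Agent.H198.Classes
  Cfsg.Agent.LieClassical.QuadForms Cfsg.Agent.H198.ClassesPlus
  Cfsg.Agent.ClassicalGeometry.TrialityOct Cfsg.Agent.ClassicalGeometry.Triality
  Cfsg.Agent.ClassicalGeometry.TrialitySpaces Cfsg.Agent.H198.TriBase Cfsg.Agent.H198.TriAut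
  Cfsg.Agent.H198.TriDia Cfsg.Agent.H198.TriTC Cfsg.Agent.H106.RC Cfsg.Agent.H93.RC

universe u

variable {F : Type u} [Field F]

theorem pow_app (M : G8 F) (n : ℕ) (v : V8 F) : (M ^ n).1 v = (M.1)^[n] v := by
  induction n generalizing v with
  | zero => rfl
  | succ n ih => rw [pow_succ, mulG, ih, Function.iterate_succ_apply]

theorem tg_pow {a b : V8 F} {β : ↥(E (plusForm 4 F))} (hβ : ∀ v, (β : V8 F ≃ₗ[F] V8 F) v = gm a b v) (n : ℕ)
    (v : V8 F) : (tg (plusForm 4 F) (β ^ n)).1 v = (gm a b)^[n] v := by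
  rw [map_pow, pow_app]
  have : ((tg (plusForm 4 F) β).1 : V8 F → V8 F) = gm a b := funext fun v => hβ v
  rw [this]

theorem iter_W {a b v : V8 F} (hv : v ∈ Wp a b) (n : ℕ) : (gm a b)^[n] v = v :=
  Function.iterate_fixed (gm_w hv.1 hv.2) n

/-- a linear similitude fixing a nonsingular vector is an isometry -/
theorem isom_of_fix {M : G8 F} (hl : Cfsg.Agent.H198.TriDia.IsLin M) {a : V8 F} (ha : M.1 a = a)
    (hne : plusForm 4 F a ≠ 0) : IsSS (plusForm 4 F) (RingEquiv.refl F) 1 M.1 := by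
  obtain ⟨c, hc⟩ := hl
  have h1 := hc.form a
  rw [ha, RingEquiv.refl_apply] at h1
  have h2 : c = 1 := by
    have h3 : (c - 1) * plusForm 4 F a = 0 := by rw [sub_mul, one_mul, ← h1, sub_self]
    exact sub_eq_zero.1 ((mul_eq_zero.1 h3).resolve_right hne)
  rwa [h2] at hc

theorem gm_comm {M : G8 F} (hM : IsSS (plusForm 4 F) (RingEquiv.refl F) 1 M.1) {a b : V8 F} (ha : M.1 a = a)
    (hb : M.1 b = b) (v : V8 F) : gm a b (M.1 v) = M.1 (gm a b v) := by
  have hp : ∀ u w, polar (plusForm 4 F) (M.1 u) (M.1 w) = polar (plusForm 4 F) u w := by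
    intro u w
    have := hM.polar u w
    rwa [one_mul] at this
  have hsub := hM.sub
  have hsm : ∀ (c : F) u, M.1 (c • u) = c • M.1 u := fun c u => hM.smul c u
  have e1 : ∀ c : F, M.1 v - c • b = M.1 (v - c • b) := by
    intro c
    rw [hsub, hsm, hb]
  have e2 : polar (plusForm 4 F) (M.1 v) b = polar (plusForm 4 F) v b := by
    rw [← hp v b, hb]
  unfold gm
  rw [e2, e1]
  set v' := v - (polar (plusForm 4 F) v b / plusForm 4 F b) • b
  have e3 : polar (plusForm 4 F) (M.1 v') a = polar (plusForm 4 F) v' a := by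
    rw [← hp v' a, ha]
  clear_value v'
  rw [e3, hsub, hsm, ha]

section

variable {τ : G8 F} (h : Au τ) {a b : V8 F} (k : Kp τ a b)
variable {G : Type*} [Group G] {N : Subgroup G} {σ : P8 F →* G}

include h k

/-- powers of the rotation which are trivial in `G` -/
theorem pow_one_iff [Finite F] (hG : Good (plusForm 4 F)) (hσ : Rp (plusForm 4 F) N σ) {β : ↥(E (plusForm 4 F))}
    (hβ : ∀ v, (β : V8 F ≃ₗ[F] V8 F) v = gm a b v) (n : ℕ) :
    up σ β ^ n = 1 ↔ ∀ v, (gm a b)^[n] v = v := by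
  rw [← map_pow]
  constructor
  · intro h1
    have h2 : β ^ n ∈ Subgroup.center ↥(E (plusForm 4 F)) := by
      rw [← hσ.rep.ker]; exact h1
    obtain ⟨c, hc⟩ := center_scalar hG h2
    obtain ⟨w, hw, hQ⟩ := exists_w k hG
    have hc' : ∀ v, (gm a b)^[n] v = c • v := by
      intro v
      rw [← hc v, ← tg_pow hβ]
      rfl
    have h3 := hc' w
    rw [iter_W hw] at h3
    have hw0 : w ≠ 0 := by rintro rfl; exact hQ (QuadraticMap.map_zero _)
    have h4 : c = 1 := by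
      have : (c - 1) • w = 0 := by rw [sub_smul, one_smul, ← h3, sub_self]
      exact sub_eq_zero.1 ((smul_eq_zero.1 this).resolve_right hw0)
    intro v
    rw [hc', h4, one_smul]
  · intro h1
    have h2 : β ^ n = 1 := by
      apply Subtype.ext
      apply LinearEquiv.ext
      intro v
      have := tg_pow hβ n v
      rw [h1] at this
      exact this
    rw [h2, map_one]

end

/-- the cubes -/
theorem coprime_one {G : Type*} [Group G] {g : G} {m n : ℕ} (h : m.Coprime n) (h1 : g ^ m = 1) (h2 : g ^ n = 1) :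
    g = 1 := by
  have h3 := pow_gcd_eq_one.2 ⟨h1, h2⟩
  rwa [h, pow_one] at h3

section main

variable {τ : G8 F} (h : Au τ) {a b : V8 F} (k : Kp τ a b)
variable {G Ω : Type*} [Group G] [Finite G] [MulAction G Ω] [Nonempty Ω] {N : Subgroup G} {σ : P8 F →* G}

include h k

/-- the elements of `G` attached to the rotation -/
theorem exists_B [Finite F] (hG : Good (plusForm 4 F)) (hE : Env G Ω N) (hσ : Rp (plusForm 4 F) N σ)
    {x₁ : G} (hL : La σ x₁ (xt hG τ)) :
    ∃ (B : G) (β : ↥(E (plusForm 4 F))) (H1 : G8 F), (∀ v, (β : V8 F ≃ₗ[F] V8 F) v = gm a b v) ∧ B = up σ β ∧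
      (∀ v, H1.1 v = ((plusForm 4 F a)⁻¹ ^ 2) • Sm τ a b v) ∧ Lf (up σ) (x₁ * B * x₁⁻¹) H1 ∧
      B * (x₁ * B * x₁⁻¹) = x₁ * B * x₁⁻¹ * B ∧
      B * (x₁ * B * x₁⁻¹) * (x₁ * (x₁ * B * x₁⁻¹) * x₁⁻¹) = 1 := by
  obtain ⟨β, hβ⟩ := exists_rot hG k
  obtain ⟨H1, H2, hH1, hH2, e1, e2⟩ := exists_H h k hG β hβ
  have hLB : La σ (up σ β) (Psi _ (tg _ β)) := La.lf.2 (Lf.tg β)
  have hx3 : x₁ ^ 3 = 1 := by
    have h1 := hL.pow 3
    rw [xt_pow_three hG h.tri h.cube] at h1
    exact h1.eq hE hσ La.one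
  have l1 : Lf (up σ) (x₁ * up σ β * x₁⁻¹) H1 := by
    rw [← La.lf, ← e1]
    exact (hL.mul hLB).mul hL.inv
  have l2 : Lf (up σ) (x₁⁻¹ * up σ β * x₁) H2 := by
    rw [← La.lf, ← e2]
    exact (hL.inv.mul hLB).mul hL
  have e3 : x₁ * (x₁ * up σ β * x₁⁻¹) * x₁⁻¹ = x₁⁻¹ * up σ β * x₁ := by
    have h1 : x₁ * x₁ = x₁⁻¹ := by
      rw [eq_inv_iff_mul_eq_one, ← pow_two, ← pow_succ, hx3]
    calc x₁ * (x₁ * up σ β * x₁⁻¹) * x₁⁻¹ = (x₁ * x₁) * up σ β * (x₁ * x₁)⁻¹ := by group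
      _ = _ := by rw [h1, inv_inv]
  have hsc : ∀ (c : F) v, gm a b (c • v) = c • gm a b v := fun c v => gm_smul c v
  refine ⟨up σ β, β, H1, hβ, rfl, hH1, l1, ?_, ?_⟩
  · have m1 : Lf (up σ) (up σ β * (x₁ * up σ β * x₁⁻¹)) (tg _ β * H1) := (Lf.tg β).mul l1
    have m2 : Lf (up σ) (x₁ * up σ β * x₁⁻¹ * up σ β) (H1 * tg _ β) := l1.mul (Lf.tg β)
    have e4 : tg _ β * H1 = H1 * tg _ β := by
      apply Subtype.ext
      ext1 v
      change (tg _ β * H1).1 v = (H1 * tg _ β).1 v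
      rw [mulG, mulG, tg_coe, tg_coe, hβ, hβ, hH1, hH1, hsc, gS h k]
    rw [← e4] at m2
    exact (La.lf.2 m1).eq hE hσ (La.lf.2 m2)
  · have m1 := (((Lf.tg (ρ := up σ) β).mul l1).mul l2)
    rw [e3, (m1.eq_one_iff hG hE hσ.rep)]
    refine ⟨1, one_ne_zero, fun v => ?_⟩
    rw [mulG, mulG, tg_coe, hβ, hH1, hH2, hsc, gSR h k, smul_smul, ← mul_pow, inv_mul_cancel₀ k.ne, one_pow]

end main

end Cfsg.Agent.H566.RC
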