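import Cfsg.Agent.H566.RC.Kill3

/-!
# S3510, triality: the KL lemma (helper566)

`kill` : a cover consisting of a triality element `x i₁` (`xt hG τ`, `τ` linear) and commuting elements of different
prime orders whose lifts are automorphisms of `dia τ` fixing a composition plane `⟨a, b⟩` does not exist
(if `RC` holds for the orthogonal group of the complement).
-/

set_option autoImplicit false
set_option linter.unusedSectionVars false

namespace Cfsg.Agent.H566.RC

open Module QuadraticMap Cfsg.Agent.LieClassical.OrthCore Cfsg.Agent.LieClassical.OrthTrans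
  Cfsg.Agent.LieClassical.OrthSimple Cfsg.Agent.ClassicalGeometry.OrthAut1
  Cfsg.Agent.ClassicalGeometry.OrthSemi Cfsg.Agent.H198.Classes
  Cfsg.Agent.LieClassical.QuadForms Cfsg.Agent.H198.ClassesPlus
  Cfsg.Agent.ClassicalGeometry.TrialityOct Cfsg.Agent.ClassicalGeometry.Triality
  Cfsg.Agent.ClassicalGeometry.TrialitySpaces Cfsg.Agent.H198.TriBase Cfsg.Agent.H198.TriAut
  Cfsg.Agent.H198.TriDia Cfsg.Agent.H198.TriTC Cfsg.Agent.H106.RC Cfsg.Agent.H93.RC

universe u

variable {F : Type u} [Field F]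

theorem iter_H {τ : G8 F} (h : Au τ) {a b : V8 F} (k : Kp τ a b) {H1 : G8 F}
    (hH1 : ∀ v, H1.1 v = ((plusForm 4 F a)⁻¹ ^ 2) • Sm τ a b v) (n : ℕ) :
    ∀ v ∈ Wp a b, (H1 ^ n).1 v ∈ Wp a b := by
  induction n with
  | zero => intro v hv; rw [pow_zero]; exact hv
  | succ n ih =>
    intro v hv
    rw [pow_succ, mulG]
    apply ih
    rw [hH1]
    exact (Wp a b).smul_mem _ (S_perp h k hv.1 hv.2)

/-- a `ρ`-fixed power of the rotation of order three is trivial -/
theorem fixed_triv [Finite F] (hG : Good (plusForm 4 F)) {τ : G8 F} (h : Au τ) {a b : V8 F} (k : Kp τ a b)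
    {β : ↥(E (plusForm 4 F))} (hβ : ∀ v, (β : V8 F ≃ₗ[F] V8 F) v = gm a b v) {n : ℕ}
    (h3 : ∀ v, (gm a b)^[n * 3] v = v)
    (hc : Psi (plusForm 4 F) (tg _ (β ^ n)) * xt hG τ = xt hG τ * Psi (plusForm 4 F) (tg _ (β ^ n))) (v : V8 F) :
    (gm a b)^[n] v = v := by
  -- the scalar
  obtain ⟨N₁, N₂, hN⟩ : tg (plusForm 4 F) (β ^ n) ∈ T1 F := by
    have h1 := gamO_mem_T1 hG (x := ⟨((β ^ n : ↥(E (plusForm 4 F))) : V8 F ≃ₗ[F] V8 F), E_le_O (β ^ n).2⟩) (β ^ n).2
    exact h1
  obtain ⟨c, hc0, hc⟩ := comm_mo hG h.tri hN hc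
  have hmo : ∀ u w, mo τ τ u w = dia τ u w := by
    intro u w
    unfold mo dia
    rw [aut_oconj h.tri.inv]
  have hc' : ∀ u w, (gm a b)^[n] (dia τ u w) = c • dia τ ((gm a b)^[n] u) ((gm a b)^[n] w) := by
    intro u w
    have := hc u w
    rwa [hmo, hmo, tg_pow hβ, tg_pow hβ, tg_pow hβ] at this
  obtain ⟨w, hw, hQ⟩ := exists_w k hG
  have hsm : ∀ (n : ℕ) (c : F) (x : V8 F), (gm a b)^[n] (c • x) = c • (gm a b)^[n] x := by
    intro n c x
    induction n with
    | zero => rfl
    | succ n ih => rw [Function.iterate_succ_apply', ih, gm_smul, Function.iterate_succ_apply']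
  have key : ∀ y, y = a ∨ y = b → (gm a b)^[n] y = c • y := by
    intro y hy
    have h1 : dia τ w y ∈ Wp a b := perp_right h k hw.1 hw.2 hy
    have h2 := hc' (dia τ w y) w
    rw [h.dia_dia, iter_W h1, iter_W hw, h.dia_dia, hsm, smul_comm c] at h2
    have h4 := congrArg (fun z => (plusForm 4 F w)⁻¹ • z) h2
    simp only [smul_smul, inv_mul_cancel₀ hQ, one_smul] at h4
    rw [← mul_assoc, inv_mul_cancel₀ hQ, one_mul] at h4
    exact h4
  have hz : zg a b ^ n = QuadraticAlgebra.C c := by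
    apply ac_eq h k
    rw [← gm_iter h k inK_a]
    exact key a (Or.inl rfl)
  have hz3 : c ^ 3 = 1 := by
    have h1 : zg a b ^ (n * 3) = QuadraticAlgebra.C 1 := by
      apply ac_eq h k
      rw [← gm_iter h k inK_a, h3, one_smul]
    rw [pow_mul, hz, ← QuadraticAlgebra.C_pow] at h1
    exact QuadraticAlgebra.C_injective h1
  have hc2 : c ^ 2 = 1 := by
    have h1 : plusForm 4 F ((gm a b)^[n] a) = plusForm 4 F a := by
      rw [← tg_pow hβ]
      exact E_le_O (β ^ n).2 a
    rw [key a (Or.inl rfl), QuadraticMap.map_smul, smul_eq_mul] at h1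
    have h2 : (c ^ 2 - 1) * plusForm 4 F a = 0 := by linear_combination h1
    exact sub_eq_zero.1 ((mul_eq_zero.1 h2).resolve_right k.ne)
  have hc1 : c = 1 := by
    have : c ^ 3 = c ^ 2 * c := pow_succ c 2
    rw [hz3, hc2, one_mul] at this
    exact this.symm
  obtain ⟨α, β', w', rfl, hwa, hwb⟩ := exists_dec h k v
  have hadd : ∀ (n : ℕ) (x y : V8 F), (gm a b)^[n] (x + y) = (gm a b)^[n] x + (gm a b)^[n] y := by
    intro n x y
    induction n with
    | zero => rfl
    | succ n ih => rw [Function.iterate_succ_apply', ih, gm_add, Function.iterate_succ_apply',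
        Function.iterate_succ_apply']
  have hw : (gm a b)^[n] w' = w' := iter_W ⟨hwa, hwb⟩ n
  rw [hadd, hadd, hsm, hsm, hw, key a (Or.inl rfl), key b (Or.inr rfl), hc1, one_smul, one_smul]

/-- **KL lemma** -/
theorem kill [Finite F] {G Ω : Type*} [Group G] [Finite G] [MulAction G Ω] [Nonempty Ω] {N : Subgroup G}
    {σ : P8 F →* G} (hG : Good (plusForm 4 F)) (hE : Env G Ω N) (hσ : Rp (plusForm 4 F) N σ) {p : ℕ} [CharP F p]
    {ι : Type*} [Finite ι] {x : ι → G} {r : ι → ℕ} {i₁ : ι}
    (hr : ∀ j, j ≠ i₁ → (r j).Prime) (hx : ∀ j, j ≠ i₁ → x j ^ r j = 1) (hx1 : ∀ j, j ≠ i₁ → x j ≠ 1)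
    (hc : ∀ i j, x i * x j = x j * x i) (hcov : Cov Ω x)
    {τ : G8 F} (h : Au τ) (hL : La σ (x i₁) (xt hG τ))
    {M : ι → G8 F} (hM : ∀ j, j ≠ i₁ → Lf (up σ) (x j) (M j))
    (hl : ∀ j, j ≠ i₁ → Cfsg.Agent.H198.TriDia.IsLin (M j))
    (hd : ∀ j, j ≠ i₁ → ∀ u w, (M j).1 (dia τ u w) = dia τ ((M j).1 u) ((M j).1 w))
    {a b : V8 F} (k : Kp τ a b) (ha : ∀ j, j ≠ i₁ → (M j).1 a = a) (hb : ∀ j, j ≠ i₁ → (M j).1 b = b)
    (hinj : ∀ i j, i ≠ i₁ → j ≠ i₁ → r i = r j → i = j) (h3 : ∀ j, j ≠ i₁ → r j = 3 → p = 3)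
    (hex : ∃ j, j ≠ i₁)
    (hRC : RC (P ((plusForm 4 F).comp (Wp a b).subtype))) : False := by
  classical
  obtain ⟨hWG, hWd, hWt⟩ := Wp_facts k hG
  obtain ⟨B, β, H1, hβ, rfl, hH1, hl1, hcm, hBBB⟩ := exists_B h k hG hE hσ hL
  have hpw := pow_one_iff h k hG hσ hβ
  have hp : p.Prime := CharP.char_is_prime F p
  have hpf : Fact p.Prime := ⟨hp⟩
  set B := up σ β with hB
  have hB1 : B ≠ 1 := by
    intro h1
    have h2 := (hpw 1).1 (by rw [pow_one]; exact h1) b
    exact gm_b_ne h k h2
  -- `B` commutes with the other members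
  have hiso : ∀ j, j ≠ i₁ → IsSS (plusForm 4 F) (RingEquiv.refl F) 1 (M j).1 := fun j hj =>
    isom_of_fix (hl j hj) (ha j hj) k.ne
  have hBx : ∀ j, j ≠ i₁ → Commute B (x j) := by
    intro j hj
    have h1 : conjE (plusForm 4 F) (M j) β = β := by
      apply Subtype.ext
      rw [coe_conjE]
      apply LinearEquiv.ext
      intro v
      obtain ⟨v, rfl⟩ := (M j).1.surjective v
      rw [conjLin_apply', hβ, hβ, gm_comm (hiso j hj) (ha j hj) (hb j hj)]
    have h2 := hM j hj β
    rw [h1] at h2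
    exact (mul_inv_eq_iff_eq_mul.1 h2).symm
  -- a prime divisor of the order
  obtain ⟨r₀, hr₀, hdvd⟩ : ∃ r₀, r₀.Prime ∧ r₀ ∣ orderOf B :=
    Nat.exists_prime_and_dvd (by rwa [Ne, orderOf_eq_one_iff])
  obtain ⟨m, hm⟩ := hdvd
  have hm1 : B ^ m ≠ 1 := by
    intro h1
    have h2 := orderOf_dvd_of_pow_eq_one h1
    rw [hm] at h2
    have hm0 : 0 < m := by
      rcases Nat.eq_zero_or_pos m with h0 | h0
      · rw [h0, mul_zero] at hm
        exact absurd hm (orderOf_pos B).ne'
      · exact h0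
    have h3 := Nat.le_of_dvd hm0 h2
    have := hr₀.two_le
    nlinarith
  have hmr : B ^ (m * r₀) = 1 := by rw [mul_comm, ← hm, pow_orderOf_eq_one]
  have hrp : r₀ ≠ p := by
    rintro rfl
    apply hm1
    rw [hpw]
    exact iter_p h k (p := r₀) ((hpw _).1 hmr)
  -- the new element
  set B₁ := x i₁ * B * (x i₁)⁻¹ with hB₁
  have hBm : B₁ ^ m = x i₁ * B ^ m * (x i₁)⁻¹ := by rw [hB₁, conj_pow]
  have hcomm : Commute B B₁ := hcm
  have hB1x : ∀ j, j ≠ i₁ → Commute B₁ (x j) := by
    intro j hj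
    have e1 : Commute (x i₁) (x j) := hc i₁ j
    exact (e1.mul_left (hBx j hj)).mul_left e1.inv_left
  have hbx : ∀ j, j ≠ i₁ → B ^ m * x j = x j * B ^ m := fun j hj => ((hBx j hj).pow_left m).eq
  obtain ⟨y, L, hy1, hyr, hyx, hyL, hLW, hcov', hsc⟩ : ∃ (y : G) (L : G8 F), y ≠ 1 ∧ y ^ r₀ = 1 ∧
      (∀ j, j ≠ i₁ → Commute y (x j)) ∧ Lf (up σ) y L ∧ (∀ v ∈ Wp a b, L.1 v ∈ Wp a b) ∧
      Cov Ω (Function.update x i₁ y) ∧ (r₀ = 3 ∨ ScalOn L (Wp a b)) := by
    by_cases hr3 : r₀ = 3
    · -- order three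
      refine ⟨(B ^ m)⁻¹ * B₁ ^ m, (tg _ (β ^ m))⁻¹ * H1 ^ m, ?_, ?_, ?_, ?_, ?_, ?_, Or.inl hr3⟩
      · intro h0
        apply hm1
        have h1 : B ^ m = x i₁ * B ^ m * (x i₁)⁻¹ := by
          rw [← hBm]
          exact inv_mul_eq_one.1 h0
        have h2 : La σ (B ^ m) (Psi _ (tg _ (β ^ m))) := by
          rw [hB, ← map_pow]
          exact La.lf.2 (Lf.tg _)
        have h4 : Psi (plusForm 4 F) (tg _ (β ^ m)) * xt hG τ = xt hG τ * Psi (plusForm 4 F) (tg _ (β ^ m)) := by
          have h5 := h2.mul hL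
          have h6 := hL.mul h2
          have h7 : B ^ m * x i₁ = x i₁ * B ^ m := by
            nth_rw 1 [h1]
            rw [inv_mul_cancel_right]
          rw [h7] at h5
          exact La.unique hσ h5 h6
        rw [hpw]
        refine fixed_triv hG h k hβ ((hpw _).1 ?_) h4
        rw [← hr3]
        exact hmr
      · have h1 : Commute ((B ^ m)⁻¹) (B₁ ^ m) := (hcomm.pow_pow m m).inv_left
        rw [h1.mul_pow, inv_pow, ← pow_mul, hmr, inv_one, one_mul, hBm, conj_pow, ← pow_mul, hmr, mul_one, mul_inv_cancel]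
      · intro j hj
        exact ((hBx j hj).pow_left m).inv_left.mul_left ((hB1x j hj).pow_left m)
      · apply Lf.mul
        · apply Lf.inv
          rw [hB, ← map_pow]
          exact Lf.tg _
        · exact hl1.pow m
      · intro v hv
        rw [mulG]
        have h1 := iter_H h k hH1 m v hv
        have h2 : (tg _ (β ^ m))⁻¹.1 ((H1 ^ m).1 v) = (H1 ^ m).1 v := by
          conv_lhs => rw [← iter_W h1 m, ← tg_pow hβ m]
          rw [inv_app]
        rw [h2]
        exact h1
      · exact mv_one hcov hbx hBm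
    · refine ⟨(B ^ m) ^ 3, tg _ (β ^ (m * 3)), ?_, ?_, ?_, ?_, ?_, ?_, Or.inr ?_⟩
      · intro h0
        apply hm1
        have hco : (3 : ℕ).Coprime r₀ := (Nat.coprime_primes Nat.prime_three hr₀).2 (Ne.symm hr3)
        exact coprime_one hco h0 (by rw [← pow_mul, hmr])
      · rw [← pow_mul, mul_comm 3 r₀, pow_mul, ← pow_mul B m r₀, hmr, one_pow]
      · intro j hj
        exact ((hBx j hj).pow_left m).pow_left 3
      · rw [← pow_mul, hB, ← map_pow]
        exact Lf.tg _
      · intro v hv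
        rw [tg_pow hβ, iter_W hv]
        exact hv
      · refine mv_cube hcov hbx (fun j => hc i₁ j) hBm (hcomm.pow_pow m m).eq ?_
        have e1 : x i₁ * B₁ ^ m * (x i₁)⁻¹ = (x i₁ * B₁ * (x i₁)⁻¹) ^ m := conj_pow.symm
        have e2 : x i₁ * B₁ * (x i₁)⁻¹ = (B * B₁)⁻¹ := (inv_eq_of_mul_eq_one_right hBBB).symm
        rw [e1, e2, inv_pow, hcomm.mul_pow, mul_inv_cancel]
      · refine ⟨1, one_ne_zero, fun v hv => ?_⟩
        rw [tg_pow hβ, iter_W hv, one_smul]
  -- the other members are not scalar on `W`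
  have hns : ∀ j, j ≠ i₁ → ¬ ScalOn (M j) (Wp a b) := by
    intro j hj hs
    apply hx1 j hj
    rw [(hM j hj).eq_one_iff hG hE hσ.rep]
    refine ⟨1, one_ne_zero, fun v => ?_⟩
    rw [one_smul]
    exact eq_one_of_scalOn h k hG (fun a v => (hiso j hj).smul a v) (hd j hj) (ha j hj) (hb j hj) hs v
  have hinv : ∀ j, j ≠ i₁ → ∀ v ∈ Wp a b, (M j).1 v ∈ Wp a b := by
    intro j hj v hv
    have hpl : ∀ u w, polar (plusForm 4 F) ((M j).1 u) ((M j).1 w) = polar (plusForm 4 F) u w := by
      intro u w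
      have := (hiso j hj).polar u w
      rwa [one_mul] at this
    refine ⟨?_, ?_⟩
    · have := hpl v a
      rw [ha j hj] at this
      rw [this]; exact hv.1
    · have := hpl v b
      rw [hb j hj] at this
      rw [this]; exact hv.2
  refine H188.RC.box_A (p := p) hG hE hσ.rep (x := Function.update x i₁ y) (M := Function.update M i₁ L)
    (r := Function.update r i₁ r₀) ?_ ?_ ?_ ?_ ?_ hcov' (Wp a b) hWG hWt ?_ ?_ ?_ ?_ (Or.inl hRC)
  · intro i
    by_cases hi : i = i₁
    · subst hi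
      rw [Function.update_self, Function.update_self]
      exact hyL
    · rw [Function.update_of_ne hi, Function.update_of_ne hi]
      exact hM i hi
  · intro i
    by_cases hi : i = i₁
    · subst hi
      rw [Function.update_self]
      exact hr₀
    · rw [Function.update_of_ne hi]
      exact hr i hi
  · intro i
    by_cases hi : i = i₁
    · subst hi
      rw [Function.update_self, Function.update_self]
      exact hyr
    · rw [Function.update_of_ne hi, Function.update_of_ne hi]
      exact hx i hi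
  · intro i
    by_cases hi : i = i₁
    · subst hi
      rw [Function.update_self]
      exact hy1
    · rw [Function.update_of_ne hi]
      exact hx1 i hi
  · intro i j
    by_cases hi : i = i₁
    · subst hi
      by_cases hj : j = i
      · rw [hj]
      · rw [Function.update_self, Function.update_of_ne hj]
        exact (hyx j hj).eq
    · by_cases hj : j = i₁
      · subst hj
        rw [Function.update_self, Function.update_of_ne hi]
        exact (hyx i hi).eq.symm
      · rw [Function.update_of_ne hi, Function.update_of_ne hj]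
        exact hc i j
  · intro i
    by_cases hi : i = i₁
    · subst hi
      rw [Function.update_self]
      exact hLW
    · rw [Function.update_of_ne hi]
      exact hinv i hi
  · obtain ⟨j, hj⟩ := hex
    refine ⟨j, ?_⟩
    rw [Function.update_of_ne hj]
    exact hns j hj
  · intro i hi j hj hij
    have aux : ∀ j, j ≠ i₁ → ¬ ScalOn (Function.update M i₁ L i₁) (Wp a b) → r₀ ≠ r j := by
      intro j hj hn he
      rw [Function.update_self] at hn
      have h1 : r₀ = 3 := hsc.resolve_right hn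
      apply hrp
      rw [h3 j hj (he ▸ h1), h1]
    by_cases hi' : i = i₁
    · by_cases hj' : j = i₁
      · rw [hi', hj']
      · exfalso
        subst hi'
        rw [Function.update_self, Function.update_of_ne hj'] at hij
        exact aux j hj' hi hij
    · by_cases hj' : j = i₁
      · exfalso
        subst hj'
        rw [Function.update_self, Function.update_of_ne hi'] at hij
        exact aux i hi' hj hij.symm
      · rw [Function.update_of_ne hi', Function.update_of_ne hj'] at hij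
        exact hinj i j hi' hj' hij
  · intro i hs
    by_cases hi : i = i₁
    · subst hi
      rw [Function.update_self]
      exact hrp
    · rw [Function.update_of_ne hi] at hs
      exact absurd hs (hns i hi)

end Cfsg.Agent.H566.RC
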