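import Cfsg.Agent.H566.RC.Dia

/-!
# S3510, triality: rotations of a composition plane (helper566)

`K = ⟨a, b⟩`, `Q a = Q b = κ`, commutative and closed under `⋄ = dia τ`. `g = r_a r_b`, `S v = (b ⋄ v) ⋄ a`,
`R v = a ⋄ (v ⋄ b)`: `g S R = κ²`, `g S = S g`, everything preserves `W = K^⊥`, on which `g = 1`.
-/

set_option autoImplicit false
set_option linter.unusedSectionVars false

namespace Cfsg.Agent.H566.RC

open Module QuadraticMap Cfsg.Agent.LieClassical.OrthCore Cfsg.Agent.LieClassical.OrthTrans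
  Cfsg.Agent.LieClassical.OrthSimple Cfsg.Agent.ClassicalGeometry.OrthAut1
  Cfsg.Agent.ClassicalGeometry.OrthSemi Cfsg.Agent.H198.Classes
  Cfsg.Agent.LieClassical.QuadForms Cfsg.Agent.H198.ClassesPlus
  Cfsg.Agent.ClassicalGeometry.TrialityOct Cfsg.Agent.ClassicalGeometry.Triality
  Cfsg.Agent.ClassicalGeometry.TrialitySpaces Cfsg.Agent.H198.TriBase Cfsg.Agent.H198.TriAut
  Cfsg.Agent.H198.TriDia Cfsg.Agent.H198.TriTC

universe u

variable {F : Type u} [Field F]

/-- a composition plane with two vectors of the same norm -/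
structure Kp (τ : G8 F) (a b : V8 F) : Prop where
  norm : plusForm 4 F b = plusForm 4 F a
  ne : plusForm 4 F a ≠ 0
  disc : polar (plusForm 4 F) a b ^ 2 ≠ 4 * plusForm 4 F a ^ 2
  comm : dia τ a b = dia τ b a
  aa : ∃ α β : F, dia τ a a = α • a + β • b
  bb : ∃ α β : F, dia τ b b = α • a + β • b
  ab : ∃ α β : F, dia τ a b = α • a + β • b

/-- `r_a r_b` -/
def gm (a b v : V8 F) : V8 F :=
  (v - (polar (plusForm 4 F) v b / plusForm 4 F b) • b) -
    (polar (plusForm 4 F) (v - (polar (plusForm 4 F) v b / plusForm 4 F b) • b) a / plusForm 4 F a) • a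

/-- `(b ⋄ v) ⋄ a` -/
def Sm (τ : G8 F) (a b v : V8 F) : V8 F := dia τ (dia τ b v) a

/-- `a ⋄ (v ⋄ b)` -/
def Rm (τ : G8 F) (a b v : V8 F) : V8 F := dia τ a (dia τ v b)

section

variable {τ : G8 F} (h : Au τ) {a b : V8 F} (k : Kp τ a b)

theorem gm_add (v w : V8 F) : gm a b (v + w) = gm a b v + gm a b w := by
  unfold gm
  simp only [polar_add_left, polar_sub_left, polar_smul_left, add_div, sub_div, add_smul, sub_smul]
  module

theorem gm_smul (c : F) (v : V8 F) : gm a b (c • v) = c • gm a b v := by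
  unfold gm
  simp only [polar_add_left, polar_sub_left, polar_smul_left, add_div, sub_div, add_smul, sub_smul, smul_sub,
    smul_smul, mul_div_assoc]
  module

include h in
theorem Sm_add (v w : V8 F) : Sm τ a b (v + w) = Sm τ a b v + Sm τ a b w := by
  unfold Sm
  rw [h.dia_add_right, h.dia_add_left]

include h in
theorem Sm_smul (c : F) (v : V8 F) : Sm τ a b (c • v) = c • Sm τ a b v := by
  unfold Sm
  rw [h.dia_smul_right, h.dia_smul_left]

include h in
theorem Rm_add (v w : V8 F) : Rm τ a b (v + w) = Rm τ a b v + Rm τ a b w := by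
  unfold Rm
  rw [h.dia_add_left, h.dia_add_right]

include h in
theorem Rm_smul (c : F) (v : V8 F) : Rm τ a b (c • v) = c • Rm τ a b v := by
  unfold Rm
  rw [h.dia_smul_left, h.dia_smul_right]

theorem polar_self' (v : V8 F) : polar (plusForm 4 F) v v = 2 * plusForm 4 F v := by
  rw [QuadraticMap.polar_self, two_smul, two_mul]

include k in
theorem gm_a : gm a b a = (polar (plusForm 4 F) a b ^ 2 / plusForm 4 F a ^ 2 - 1) • a -
    (polar (plusForm 4 F) a b / plusForm 4 F a) • b := by
  have h1 : polar (plusForm 4 F) b a = polar (plusForm 4 F) a b := polar_comm _ _ _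
  unfold gm
  rw [k.norm, polar_sub_left, polar_smul_left, polar_self', h1]
  have hne := k.ne
  generalize polar (plusForm 4 F) a b = c at *
  generalize plusForm 4 F a = κ at *
  have e : (2 * κ - (c / κ) • c) / κ = 2 - c ^ 2 / κ ^ 2 := by
    rw [smul_eq_mul]; field_simp
  rw [e]
  module

include k in
theorem gm_b : gm a b b = (polar (plusForm 4 F) a b / plusForm 4 F a) • a - b := by
  have h1 : polar (plusForm 4 F) b a = polar (plusForm 4 F) a b := polar_comm _ _ _
  unfold gm
  rw [k.norm, polar_sub_left, polar_smul_left, polar_self', k.norm, h1]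
  have hne := k.ne
  generalize polar (plusForm 4 F) a b = c at *
  generalize plusForm 4 F a = κ at *
  have e1 : 2 * κ / κ = 2 := by field_simp
  rw [e1]
  have e : (c - (2:F) • c) / κ = - (c / κ) := by
    rw [smul_eq_mul]; ring
  rw [e]
  module

theorem gm_w {w : V8 F} (hwa : polar (plusForm 4 F) w a = 0) (hwb : polar (plusForm 4 F) w b = 0) : gm a b w = w := by
  unfold gm
  rw [hwb, zero_div, zero_smul, sub_zero, hwa, zero_div, zero_smul, sub_zero]

end

section

variable {τ : G8 F} (h : Au τ) {a b : V8 F} (k : Kp τ a b)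

include h k

theorem m_a : dia τ (dia τ a b) a = plusForm 4 F a • b := h.dia_dia a b

theorem a_m : dia τ a (dia τ a b) = plusForm 4 F a • b := by rw [k.comm]; exact h.dia_dia' a b

theorem b_m : dia τ b (dia τ a b) = plusForm 4 F a • a := by rw [h.dia_dia', k.norm]

theorem m_b : dia τ (dia τ a b) b = plusForm 4 F a • a := by rw [k.comm, h.dia_dia, k.norm]

theorem bb_a : dia τ (dia τ b b) a = polar (plusForm 4 F) a b • b - plusForm 4 F a • a := by
  have h1 := h.lin1 b b a
  rw [m_b h k, polar_comm] at h1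
  rw [← h1, add_sub_cancel_right]

theorem a_bb : dia τ a (dia τ b b) = polar (plusForm 4 F) a b • b - plusForm 4 F a • a := by
  have h1 := h.lin2 a b b
  rw [← k.comm, b_m h k] at h1
  rw [← h1, add_sub_cancel_right]

theorem S_a : Sm τ a b a = plusForm 4 F a • b := by
  unfold Sm
  rw [← k.comm, m_a h k]

theorem S_b : Sm τ a b b = polar (plusForm 4 F) a b • b - plusForm 4 F a • a := bb_a h k

theorem R_a : Rm τ a b a = plusForm 4 F a • b := a_m h k

theorem R_b : Rm τ a b b = polar (plusForm 4 F) a b • b - plusForm 4 F a • a := a_bb h k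

/-- left multiplication by elements of `K` preserves `W` -/
theorem perp_left {w x : V8 F} (hwa : polar (plusForm 4 F) w a = 0) (hwb : polar (plusForm 4 F) w b = 0)
    (hx : x = a ∨ x = b) : polar (plusForm 4 F) (dia τ x w) a = 0 ∧ polar (plusForm 4 F) (dia τ x w) b = 0 := by
  have key : ∀ y, (∃ α β : F, dia τ y x = α • a + β • b) → polar (plusForm 4 F) (dia τ x w) y = 0 := by
    rintro y ⟨α, β, hy⟩
    rw [h.assoc, polar_comm, h.assoc, hy, polar_add_right, polar_smul_right, polar_smul_right, hwa, hwb]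
    simp
  obtain ⟨α, β, hab⟩ := k.ab
  have hba : ∃ α β : F, dia τ b a = α • a + β • b := ⟨α, β, by rw [← k.comm]; exact hab⟩
  rcases hx with rfl | rfl
  · exact ⟨key _ k.aa, key _ hba⟩
  · exact ⟨key _ ⟨α, β, hab⟩, key _ k.bb⟩

/-- right multiplication by elements of `K` preserves `W` -/
theorem perp_right {w x : V8 F} (hwa : polar (plusForm 4 F) w a = 0) (hwb : polar (plusForm 4 F) w b = 0)
    (hx : x = a ∨ x = b) : polar (plusForm 4 F) (dia τ w x) a = 0 ∧ polar (plusForm 4 F) (dia τ w x) b = 0 := by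
  have key : ∀ y, (∃ α β : F, dia τ x y = α • a + β • b) → polar (plusForm 4 F) (dia τ w x) y = 0 := by
    rintro y ⟨α, β, hy⟩
    rw [h.assoc, hy, polar_add_right, polar_smul_right, polar_smul_right, hwa, hwb]
    simp
  obtain ⟨α, β, hab⟩ := k.ab
  have hba : ∃ α β : F, dia τ b a = α • a + β • b := ⟨α, β, by rw [← k.comm]; exact hab⟩
  rcases hx with rfl | rfl
  · exact ⟨key _ k.aa, key _ ⟨α, β, hab⟩⟩
  · exact ⟨key _ hba, key _ k.bb⟩

theorem S_perp {w : V8 F} (hwa : polar (plusForm 4 F) w a = 0) (hwb : polar (plusForm 4 F) w b = 0) :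
    polar (plusForm 4 F) (Sm τ a b w) a = 0 ∧ polar (plusForm 4 F) (Sm τ a b w) b = 0 := by
  obtain ⟨h1, h2⟩ := perp_left h k hwa hwb (Or.inr rfl)
  exact perp_right h k h1 h2 (Or.inl rfl)

theorem R_perp {w : V8 F} (hwa : polar (plusForm 4 F) w a = 0) (hwb : polar (plusForm 4 F) w b = 0) :
    polar (plusForm 4 F) (Rm τ a b w) a = 0 ∧ polar (plusForm 4 F) (Rm τ a b w) b = 0 := by
  obtain ⟨h1, h2⟩ := perp_right h k hwa hwb (Or.inr rfl)
  exact perp_left h k h1 h2 (Or.inl rfl)

theorem SR_w {w : V8 F} (hwa : polar (plusForm 4 F) w a = 0) (hwb : polar (plusForm 4 F) w b = 0) :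
    Sm τ a b (Rm τ a b w) = (plusForm 4 F a ^ 2) • w := by
  obtain ⟨h1, h2⟩ := perp_right h k hwa hwb (Or.inr rfl)
  unfold Sm Rm
  have e1 := h.lin2 b a (dia τ w b)
  rw [polar_comm, h2, zero_smul] at e1
  have e2 := h.lin1 (dia τ w b) (dia τ a b) a
  rw [h1, zero_smul, a_m h k] at e2
  have e3 : dia τ b (dia τ a (dia τ w b)) = - dia τ (dia τ w b) (dia τ a b) := eq_neg_of_add_eq_zero_left e1
  have e4 : ∀ x y : V8 F, dia τ (-x) y = - dia τ x y := by
    intro x y
    have := h.dia_smul_left (-1) x y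
    rwa [neg_one_smul, neg_one_smul] at this
  rw [e3, e4, eq_neg_of_add_eq_zero_left e2, neg_neg, h.dia_smul_left, h.dia_dia', k.norm, smul_smul, pow_two]

/-- decomposition -/
theorem exists_dec (v : V8 F) : ∃ (α β : F) (w : V8 F), v = α • a + β • b + w ∧ polar (plusForm 4 F) w a = 0 ∧
    polar (plusForm 4 F) w b = 0 := by
  have hd : polar (plusForm 4 F) a b ^ 2 - 4 * plusForm 4 F a ^ 2 ≠ 0 := sub_ne_zero.2 k.disc
  set c := polar (plusForm 4 F) a b with hc
  set κ := plusForm 4 F a with hκ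
  set D := c ^ 2 - 4 * κ ^ 2 with hD
  set s := polar (plusForm 4 F) v a with hs
  set t := polar (plusForm 4 F) v b with ht
  have hba : polar (plusForm 4 F) b a = c := polar_comm _ _ _
  have haa : polar (plusForm 4 F) a a = 2 * κ := polar_self' a
  have hbb : polar (plusForm 4 F) b b = 2 * κ := by rw [polar_self', k.norm]
  refine ⟨(c * t - 2 * κ * s) / D, (c * s - 2 * κ * t) / D,
    v - (((c * t - 2 * κ * s) / D) • a + ((c * s - 2 * κ * t) / D) • b), by abel, ?_, ?_⟩
  · rw [polar_sub_left, polar_add_left, polar_smul_left, polar_smul_left, haa, hba, ← hs, smul_eq_mul, smul_eq_mul]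
    field_simp
    rw [hD]
    ring
  · rw [polar_sub_left, polar_add_left, polar_smul_left, polar_smul_left, hbb, ← hc, ← ht, smul_eq_mul, smul_eq_mul]
    field_simp
    rw [hD]
    ring

/-- **`g S R = κ²`** -/
theorem gSR (v : V8 F) : gm a b (Sm τ a b (Rm τ a b v)) = (plusForm 4 F a ^ 2) • v := by
  obtain ⟨α, β, w, rfl, hwa, hwb⟩ := exists_dec h k v
  have hne := k.ne
  have ea : gm a b (Sm τ a b (Rm τ a b a)) = (plusForm 4 F a ^ 2) • a := by
    rw [R_a h k, Sm_smul h, S_b h k, gm_smul, sub_eq_add_neg, gm_add, ← neg_smul, gm_smul, gm_smul, gm_a k, gm_b k]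
    generalize polar (plusForm 4 F) a b = c at *
    generalize plusForm 4 F a = κ at *
    match_scalars <;> field_simp <;> ring
  have eb : gm a b (Sm τ a b (Rm τ a b b)) = (plusForm 4 F a ^ 2) • b := by
    rw [R_b h k, sub_eq_add_neg, ← neg_smul, Sm_add h, Sm_smul h, Sm_smul h, S_b h k, S_a h k, gm_add, gm_smul,
      gm_smul, gm_smul, sub_eq_add_neg, gm_add, ← neg_smul, gm_smul, gm_smul, gm_a k, gm_b k]
    generalize polar (plusForm 4 F) a b = c at *
    generalize plusForm 4 F a = κ at *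
    match_scalars <;> field_simp <;> ring
  have ew : gm a b (Sm τ a b (Rm τ a b w)) = (plusForm 4 F a ^ 2) • w := by
    rw [SR_w h k hwa hwb, gm_smul, gm_w hwa hwb]
  rw [Rm_add h, Rm_add h, Rm_smul h, Rm_smul h, Sm_add h, Sm_add h, Sm_smul h, Sm_smul h, gm_add, gm_add, gm_smul,
    gm_smul, ea, eb, ew]
  module

/-- **`g S = S g`** -/
theorem gS (v : V8 F) : gm a b (Sm τ a b v) = Sm τ a b (gm a b v) := by
  obtain ⟨α, β, w, rfl, hwa, hwb⟩ := exists_dec h k v
  have hne := k.ne
  have ea : gm a b (Sm τ a b a) = Sm τ a b (gm a b a) := by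
    rw [S_a h k, gm_a k, sub_eq_add_neg, ← neg_smul, Sm_add h, Sm_smul h, Sm_smul h, S_a h k, S_b h k, gm_smul, gm_b k]
    generalize polar (plusForm 4 F) a b = c at *
    generalize plusForm 4 F a = κ at *
    match_scalars <;> field_simp <;> ring
  have eb : gm a b (Sm τ a b b) = Sm τ a b (gm a b b) := by
    rw [S_b h k, gm_b k, sub_eq_add_neg, ← neg_smul, gm_add, gm_smul, gm_smul, gm_a k, gm_b k, sub_eq_add_neg _ b,
      Sm_add h, Sm_smul h, S_a h k]
    have e1 : Sm τ a b (-b) = - Sm τ a b b := by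
      have := Sm_smul h (a := a) (b := b) (-1) b
      rwa [neg_one_smul, neg_one_smul] at this
    rw [e1, S_b h k]
    generalize polar (plusForm 4 F) a b = c at *
    generalize plusForm 4 F a = κ at *
    match_scalars <;> field_simp <;> ring
  have ew : gm a b (Sm τ a b w) = Sm τ a b (gm a b w) := by
    obtain ⟨h1, h2⟩ := S_perp h k hwa hwb
    rw [gm_w hwa hwb, gm_w h1 h2]
  rw [Sm_add h, Sm_add h, Sm_smul h, Sm_smul h, gm_add, gm_add, gm_smul, gm_smul, ea, eb, ew, gm_add, gm_add, gm_smul,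
    gm_smul, Sm_add h, Sm_add h, Sm_smul h, Sm_smul h]

/-- `S² = c S - κ²` on `K` -/
theorem SS {v : V8 F} (hv : ∃ α β : F, v = α • a + β • b) :
    Sm τ a b (Sm τ a b v) = polar (plusForm 4 F) a b • Sm τ a b v - (plusForm 4 F a ^ 2) • v := by
  obtain ⟨α, β, rfl⟩ := hv
  rw [Sm_add h, Sm_smul h, Sm_smul h, S_a h k, S_b h k, sub_eq_add_neg, ← neg_smul, Sm_add h, Sm_smul h, Sm_smul h,
    Sm_smul h, Sm_add h, Sm_smul h, Sm_smul h, S_a h k, S_b h k]
  module

end

end Cfsg.Agent.H566.RC
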