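import Cfsg.Agent.H566.RC.KillRC
import Cfsg.Agent.H675.RC.Frame
import Cfsg.Agent.H103.RC.FixFam
import Cfsg.Agent.H103.RC.KillI
import Cfsg.Agent.H679.RC.TriBoxC
import Cfsg.Agent.H338.RC.TriS
import Cfsg.Agent.H237.RC.IDBox
import Cfsg.Agent.H547.RC.TriLeft
import Cfsg.Agent.H547.RC.TriDim
import Cfsg.Agent.H692.RC.AutE

/-!
# S3510, triality of `PΩ₈⁺(q)`, type (i): `x i₁` induces the triality automorphism `ρ` (helper566)
-/

set_option autoImplicit false
set_option linter.unusedSectionVars false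

namespace Cfsg.Agent.H566.RC

open Module QuadraticMap Cfsg.Agent.LieClassical.OrthCore Cfsg.Agent.LieClassical.OrthTrans
  Cfsg.Agent.LieClassical.OrthSimple Cfsg.Agent.ClassicalGeometry.OrthAut1
  Cfsg.Agent.ClassicalGeometry.OrthSemi Cfsg.Agent.H198.Classes
  Cfsg.Agent.LieClassical.QuadForms Cfsg.Agent.H198.ClassesPlus
  Cfsg.Agent.ClassicalGeometry.TrialityOct Cfsg.Agent.ClassicalGeometry.Triality
  Cfsg.Agent.ClassicalGeometry.TrialitySpaces Cfsg.Agent.H198.TriBase Cfsg.Agent.H198.TriAut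
  Cfsg.Agent.H198.TriDia Cfsg.Agent.H198.TriTC Cfsg.Agent.H106.RC Cfsg.Agent.H93.RC

section

variable {F : Type} [Field F]

theorem xt_one (hG : Good (plusForm 4 F)) : xt hG 1 = rho hG := by
  rw [xt, map_one (Psi (plusForm 4 F)), one_mul]

theorem au_one : Au (1 : G8 F) := ⟨TriS.one, ⟨1, one_ne_zero, fun _ _ => rfl, fun _ _ => rfl, fun v => by
  rw [one_mul]; rfl⟩, one_pow 3⟩

theorem dia_one (u w : V8 F) : dia 1 u w = omul (oconj u) (oconj w) := by
  unfold dia
  rw [inv_one]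
  rfl

/-- a pair for the para-octonion algebra -/
theorem kp_one {b : V8 F} (hb : plusForm 4 F b = 1) (hd : polar (plusForm 4 F) b (one8 F) ^ 2 ≠ 4) :
    Kp (1 : G8 F) (one8 F) b := by
  have h1 : plusForm 4 F (one8 F) = 1 := norm_one8
  have hc : oconj (one8 F) = one8 F := by
    rw [oconj_eq, QuadraticMap.polar_self, h1]
    module
  have hcb : oconj b = polar (plusForm 4 F) b (one8 F) • one8 F - b := oconj_eq b
  refine ⟨by rw [hb, h1], by rw [h1]; exact one_ne_zero, ?_, ?_, ?_, ?_, ?_⟩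
  · rw [polar_comm, h1]
    intro h
    exact hd (by rw [h]; ring)
  · rw [dia_one, dia_one, hc, one_omul, omul_one]
  · exact ⟨1, 0, by rw [dia_one, hc, one_omul]; module⟩
  · refine ⟨polar (plusForm 4 F) b (one8 F) ^ 2 - 1, -polar (plusForm 4 F) b (one8 F), ?_⟩
    rw [dia_one]
    have e1 : omul (oconj b) b = one8 F := by
      have := oconj_omul_omul b (one8 F)
      rwa [omul_one, hb, one_smul] at this
    have e2 : omul (oconj b) (oconj b) = polar (plusForm 4 F) b (one8 F) • oconj b - one8 F := by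
      nth_rw 2 [hcb]
      rw [sub_eq_add_neg, omul_add, omul_smul, omul_one, ← neg_one_smul F b, omul_smul, e1]
      module
    rw [e2, hcb]
    module
  · exact ⟨polar (plusForm 4 F) b (one8 F), -1, by rw [dia_one, hc, one_omul, hcb]; module⟩

end

section main

variable {F : Type} [Field F] [Finite F] {G Ω : Type} [Group G] [Finite G] [MulAction G Ω] [Nonempty Ω]
  {N : Subgroup G} {σ : P8 F →* G}

/-- two members -/
theorem two_kill (hG : Good (plusForm 4 F)) (hE : Env G Ω N) (hσ : Rp (plusForm 4 F) N σ) {x₁ x₂ : G}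
    (h1 : La σ x₁ (rho hG)) {M : G8 F} (hM : Lf (up σ) x₂ M) (hT : TriS M M M)
    (hl : Cfsg.Agent.H198.TriDia.IsLin M) (hne : x₂ ≠ 1) (hcov : ∀ ω : Ω, x₁ • ω = ω ∨ x₂ • ω = ω) : False := by
  obtain ⟨g, hg, hrho⟩ := H692.RC.mem_E_of_aut hG hT hl
  have e : x₂ = σ (g : P8 F) := by
    have h2 : La σ (up σ g) (Psi (plusForm 4 F) M) := by
      rw [← hg]
      exact La.lf.2 (Lf.tg g)
    exact (La.lf.2 hM).eq hE hσ h2
  obtain ⟨u, w, hs, hi, hc⟩ := H679.RC.TriBox.box_iC (Ω := Ω) hG h1 (c := (g : P8 F))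
    (by intro h; apply hne; rw [e, h, map_one]) hrho (by intro ω; rw [← e]; exact hcov ω)
  exact H103.RC.kill_i hG hE hσ h1 hs hi (fun ω => (hc ω).symm)

/-- KL for `ρ` -/
theorem kill_one (hG : Good (plusForm 4 F)) (hE : Env G Ω N) (hσ : Rp (plusForm 4 F) N σ)
    (hIH : IH (Nat.card (P (plusForm 4 F))))
    {ι : Type} [Finite ι] {x : ι → G} {r : ι → ℕ} {i₁ : ι} (hx : PF x r) (h3 : r i₁ = 3) (hcov : Cov Ω x)
    (hL : La σ (x i₁) (rho hG)) {M : ι → G8 F} (hM : ∀ j, j ≠ i₁ → Lf (up σ) (x j) (M j))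
    (hl : ∀ j, Cfsg.Agent.H198.TriDia.IsLin (M j)) (hT : ∀ j, TriS (M j) (M j) (M j)) {b : V8 F}
    (hb : ∀ j, j ≠ i₁ → (M j).1 b = b) (hb1 : plusForm 4 F b = 1) (hb2 : polar (plusForm 4 F) b (one8 F) ^ 2 ≠ 4)
    (hex : ∃ j, j ≠ i₁) : False := by
  have hp : CharP F (ringChar F) := ringChar.charP F
  have k := kp_one hb1 hb2
  refine kill (p := ringChar F) hG hE hσ (fun j _ => hx.prime j) (fun j _ => hx.pow j) (fun j _ => hx.ne j)
    hx.comm hcov au_one (by rw [xt_one]; exact hL) hM (fun j _ => hl j) ?_ k (fun j _ => aut_one (hT j)) hb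
    (fun i j _ _ h => hx.inj h) (fun j hj h => absurd (hx.inj (h.trans h3.symm)) hj) hex (rc_W hG au_one k hIH)
  intro j _ u w
  rw [dia_one, dia_one, hT j, aut_oconj (hT j), aut_oconj (hT j)]

/-- **Type (i)** -/
theorem type_i (hG : Good (plusForm 4 F)) (hE : Env G Ω N) (hIH : IH (Nat.card (P (plusForm 4 F))))
    {ι : Type} [Finite ι] {x : ι → G} {r : ι → ℕ} (hx : PF x r) (hcov : Cov Ω x) {i₁ : ι} {M : ι → G8 F}
    (fr : H675.RC.Fr hG N x r σ i₁ 1 M) (hl : ∀ j, Cfsg.Agent.H198.TriDia.IsLin (M j)) : False := by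
  classical
  have hT : ∀ j, TriS (M j) (M j) (M j) := fun j => H692.RC.tri_of_dia_one (hl j) (fr.ex j)
  have hL : La σ (x i₁) (rho hG) := by
    have := fr.la
    rwa [xt_one] at this
  have hσ := fr.rp
  have hch : CharP F (ringChar F) := ringChar.charP F
  have hpp : (ringChar F).Prime := CharP.char_is_prime F _
  have hpf : Fact (ringChar F).Prime := ⟨hpp⟩
  have hrF : ∀ j, ((r j : ℕ) : F) = 0 ↔ r j = ringChar F := by
    intro j
    rw [CharP.cast_eq_zero_iff F (ringChar F), Nat.prime_dvd_prime_iff_eq hpp (hx.prime j)]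
    exact eq_comm
  have hr3 : ∀ j, j ≠ i₁ → r j ≠ 3 := fun j hj h => hj (hx.inj (h.trans fr.three.symm))
  -- two members
  have two : ∀ j₂, j₂ ≠ i₁ → (∀ j, j = i₁ ∨ j = j₂) → False := by
    intro j₂ hj₂ hall
    refine two_kill hG hE hσ hL (fr.lf j₂ hj₂) (hT j₂) (hl j₂) (hx.ne j₂) (Ω := Ω) fun ω => ?_
    obtain ⟨j, hj⟩ := hcov ω
    rcases hall j with rfl | rfl
    · exact Or.inl hj
    · exact Or.inr hj
  by_cases hex : ∃ j, j ≠ i₁
  swap
  · push Not at hex
    refine H103.RC.kill_i hG hE hσ hL H679.RC.TriBox.spC H679.RC.TriBox.lin_indep (Ω := Ω) fun ω => ?_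
    obtain ⟨j, hj⟩ := hcov ω
    rw [hex j] at hj
    exact Or.inr hj
  by_cases hA : ∀ j, j ≠ i₁ → ((r j : ℕ) : F) ≠ 0
  · -- no member of order `p`
    rcases H103.RC.fix_pair_family hG (fun j : {j : ι // j ≠ i₁} => M j) (fun j => r j) (fun j => hT j)
      (fun j => hl j) (fun j => hx.prime j) (fun i j h => Subtype.ext (hx.inj h)) (fun j => hA j j.2)
      (fun j => fr.pow j) (fun i j => fr.comm i j) with ⟨b, hb, hb1, hb2⟩ | ⟨hF, e, he, hee, hQe, he1, hfix⟩
    · exact kill_one hG hE hσ hIH hx fr.three hcov hL fr.lf hl hT (fun j hj => hb ⟨j, hj⟩) hb1 hb2 hex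
    · have hsub := H547.RC.TriLeft.sub_of_left hF (fun j : {j : ι // j ≠ i₁} => M j) (fun j => r j) (fun j => hT j)
        (fun j => hl j) (fun j => hx.prime j) (fun j => hr3 j j.2) (fun j => hA j j.2) (fun j => fr.pow j)
        (fun j => fr.ne j j.2) (fun i j h => Subtype.ext (hx.inj h)) (fun i j => fr.comm i j) he hee hQe he1 hfix
      obtain ⟨j₂, hj₂⟩ := hex
      refine two j₂ hj₂ fun j => ?_
      by_cases hj : j = i₁
      · exact Or.inl hj
      · exact Or.inr (congrArg Subtype.val (hsub.elim ⟨j, hj⟩ ⟨j₂, hj₂⟩))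
  -- a member of order `p`
  push Not at hA
  obtain ⟨j₂, hj₂, hj₂F⟩ := hA
  have hj₂p : r j₂ = ringChar F := (hrF j₂).1 hj₂F
  have hp3 : ringChar F ≠ 3 := fun h => hr3 j₂ hj₂ (hj₂p.trans h)
  have hrp : ∀ j, j ≠ j₂ → ((r j : ℕ) : F) ≠ 0 := fun j hj h => hj (hx.inj (((hrF j).1 h).trans hj₂p.symm))
  by_cases hex' : ∃ j, j ≠ i₁ ∧ j ≠ j₂
  swap
  · push Not at hex'
    refine two j₂ hj₂ fun j => ?_
    by_cases hj : j = i₁
    · exact Or.inl hj
    · exact Or.inr (hex' j hj)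
  obtain ⟨j₃, hj₃, hj₃'⟩ := hex'
  let A : Submodule F (V8 F) := ⨅ j : {j : ι // j ≠ i₁ ∧ j ≠ j₂},
    { carrier := {v | (M j).1 v = v}
      add_mem' := by
        intro v w hv hw
        obtain ⟨c, hc⟩ := hl j
        exact (hc.add v w).trans (by rw [show (M j).1 v = v from hv, show (M j).1 w = w from hw])
      zero_mem' := by
        obtain ⟨c, hc⟩ := hl j
        exact hc.map_zero
      smul_mem' := by
        intro a v hv
        obtain ⟨c, hc⟩ := hl j
        exact (hc.smul a v).trans (by rw [show (M j).1 v = v from hv]; rfl) }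
  have hAm : ∀ v, v ∈ A ↔ ∀ j : {j : ι // j ≠ i₁ ∧ j ≠ j₂}, (M j).1 v = v := by
    intro v
    exact Submodule.mem_iInf _
  have hAm' : ∀ v, v ∈ A ↔ ∀ j, j ≠ i₁ → j ≠ j₂ → (M j).1 v = v := by
    intro v
    rw [hAm]
    exact ⟨fun h j h1 h2 => h ⟨j, h1, h2⟩, fun h j => h j j.2.1 j.2.2⟩
  -- a pair fixed by all members
  have fin : ∀ b : V8 F, b ∈ A → (M j₂).1 b = b → plusForm 4 F b = 1 → polar (plusForm 4 F) b (one8 F) ^ 2 ≠ 4 →
      False := by
    intro b hbA hb2 hb1 hbd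
    refine kill_one hG hE hσ hIH hx fr.three hcov hL fr.lf hl hT (fun j hj => ?_) hb1 hbd hex
    by_cases hj' : j = j₂
    · rw [hj']; exact hb2
    · exact (hAm' b).1 hbA j hj hj'
  rcases H547.RC.TriDim.dim_fix hG (fun j : {j : ι // j ≠ i₁ ∧ j ≠ j₂} => M j) (fun j => r j) (fun j => hT j)
      (fun j => hl j) (fun j => hx.prime j) (fun i j h => Subtype.ext (hx.inj h)) (fun j => hrp j j.2.2)
      (fun j => fr.pow j) (fun i j => fr.comm i j) ⟨⟨j₃, hj₃, hj₃'⟩, fr.ne j₃ hj₃⟩ A hAm with hd | hd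
  · obtain ⟨-, b, hb, hbU, hb1, hbd⟩ := H338.RC.TriS.box_iS (p := ringChar F) hp3
      (fun j : {j : ι // j ≠ i₁ ∧ j ≠ j₂} => M j) (fun j => hT j) (fun j => hl j) (fun j => r j)
      (fun j => hrp j j.2.2) (fun j => fr.pow j) (fun i j => fr.comm i j) (M j₂) (hT j₂) (hl j₂)
      (by have := fr.pow j₂; rwa [hj₂p] at this) (fr.ne j₂ hj₂) (fun j => fr.comm j₂ j) A hAm hd
    exact fin b ((hAm b).2 hb) hbU hb1 hbd
  · by_cases hU : ∃ v ∈ A, (M j₂).1 v ≠ v
    · exact H237.RC.ID.box_iD (p := ringChar F) hG hE hσ hp3 hx.prime hx.pow hx.ne hx.comm hcov hj₂ hL fr.lf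
        (fun j _ => hT j) (fun j _ => hl j) (fun j _ => fr.pow j) hj₂p
        (fun j _ hj' h => hrp j hj' ((hrF j).2 h)) (fun j hj _ => hr3 j hj) A hAm' hd hU
    · push Not at hU
      rcases H103.RC.fix_pair_family hG (fun j : {j : ι // j ≠ i₁ ∧ j ≠ j₂} => M j) (fun j => r j) (fun j => hT j)
        (fun j => hl j) (fun j => hx.prime j) (fun i j h => Subtype.ext (hx.inj h)) (fun j => hrp j j.2.2)
        (fun j => fr.pow j) (fun i j => fr.comm i j) with ⟨b, hb, hb1, hb2⟩ | ⟨hF, e, he, hee, hQe, he1, hfix⟩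
      · exact fin b ((hAm b).2 hb) (hU b ((hAm b).2 hb)) hb1 hb2
      · have h1 : A ≤ Submodule.span F {one8 F, e} := by
          intro v hv
          obtain ⟨a, c, h⟩ := hfix v ((hAm v).1 hv)
          rw [Submodule.mem_span_pair]
          exact ⟨a, c, h.symm⟩
        have h2 := Submodule.finrank_mono h1
        have h3 : finrank F (Submodule.span F {one8 F, e}) ≤ 2 := by
          refine (finrank_span_le_card ({one8 F, e} : Set (V8 F))).trans ?_
          rw [Set.toFinset_insert, Set.toFinset_singleton]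
          exact Finset.card_le_two
        have h4 := h2.trans h3
        rw [hd] at h4
        exact absurd h4 (by norm_num)

end main

end Cfsg.Agent.H566.RC
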